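import Cfsg.Agent.H332.EPO.TwoD
import Cfsg.Agent.OrdDiv.Main
import Cfsg.Agent.H541.AutFrattini
import Cfsg.Agent.S0813
import Cfsg.Agent.S0814
import Cfsg.Agent.S0815
import Cfsg.Agent.S0817
import Cfsg.Agent.S0818
import Cfsg.Agent.S0265

/-!
# 2-parts of automorphism groups (helper332)

* `mulAut_fac` : `r`-groups, `r` odd; `no_elem` : a Sylow subgroup of exponent `r` excludes elements of order `r²`;
* `aut_psl`, `aut_psp`, `aut_psu`, `aut_oplus`, `aut_ominus` : `|Aut L|` from the name and `|L|`.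
-/

set_option autoImplicit false

namespace Cfsg.Agent.H332.EPO

open Subgroup Cfsg.Agent.OrdDiv
open scoped Pointwise

universe u

theorem fac_le {n k : ℕ} (h0 : n ≠ 0) (h : ¬ 2 ^ (k + 1) ∣ n) : n.factorization 2 ≤ k := by
  by_contra hc
  push Not at hc
  exact h ((Nat.prime_two.pow_dvd_iff_le_factorization h0).2 hc)

theorem mulAut_fac {M : Type*} [Group M] [Finite M] {r m B : ℕ} (hr : r.Prime) (h2 : r ≠ 2) (hM : Nat.card M = r ^ m)
    (hB : ∀ k ≤ m, ¬ 2 ^ (B + 1) ∣ ∏ i ∈ Finset.range k, (r ^ k - r ^ i)) :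
    (Nat.card (MulAut M)).factorization 2 ≤ B := by
  have := Fact.mk hr
  have h1 : (frattini M).index ∣ r ^ m := hM ▸ Subgroup.index_dvd_card _
  obtain ⟨k, hk, hk'⟩ := (Nat.dvd_prime_pow hr).1 h1
  have h3 := Cfsg.Agent.H541.AutFrattini.card_aut_dvd hM hk'
  refine fac_le Nat.card_pos.ne' fun h4 => hB k hk ?_
  have h5 := h4.trans h3
  have hcop : (2 ^ (B + 1)).Coprime (r ^ (k * (m - k))) := by
    apply Nat.Coprime.pow
    exact (Nat.coprime_primes Nat.prime_two hr).2 (Ne.symm h2)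
  exact hcop.dvd_of_dvd_mul_left h5

theorem no_elem {T : Type*} [Group T] [Finite T] {r m : ℕ} (hr : r.Prime) (h0 : r ^ m ∣ Nat.card T)
    (hm : ¬ r ^ (m + 1) ∣ Nat.card T)
    {M : Subgroup T} (hM : Nat.card M = r ^ m) (hex : ∀ x ∈ M, x ^ r = 1) {y : T} (hy : orderOf y = r ^ 2) : False := by
  have := Fact.mk hr
  have hT : Nat.card T ≠ 0 := Nat.card_pos.ne'
  have hf : (Nat.card T).factorization r = m := by
    have h1 := (hr.pow_dvd_iff_le_factorization hT).1 h0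
    have h2 := mt (hr.pow_dvd_iff_le_factorization hT).2 hm
    omega
  let P : Sylow r T := Sylow.ofCard M (by rw [hM, hf])
  have hz : IsPGroup r (zpowers y) := IsPGroup.of_card (n := 2) (by rw [Nat.card_zpowers, hy])
  obtain ⟨Q, hQ⟩ := hz.exists_le_sylow
  obtain ⟨g, hg⟩ := MulAction.exists_smul_eq T P Q
  have h1 : y ∈ (Q : Subgroup T) := hQ (mem_zpowers y)
  rw [← hg] at h1
  have h2 : y ∈ MulAut.conj g • (P : Subgroup T) := h1
  rw [Subgroup.mem_pointwise_smul_iff_inv_smul_mem] at h2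
  have h3 : ((MulAut.conj g)⁻¹ • y) ^ r = 1 := hex _ h2
  have h5 : y ^ r = 1 := by
    have h6 : (MulAut.conj g)⁻¹ (y ^ r) = 1 := (map_pow ((MulAut.conj g)⁻¹ : MulAut T) y r).trans h3
    exact (MulEquiv.map_eq_one_iff _).1 h6
  have h7 := orderOf_dvd_of_pow_eq_one h5
  rw [hy] at h7
  have h8 := Nat.le_of_dvd hr.pos h7
  have := hr.two_le
  nlinarith

theorem aut_congr {L L' : Type*} [Group L] [Group L'] (e : L ≃* L') : Nat.card (MulAut L) = Nat.card (MulAut L') :=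
  Nat.card_congr (MulAut.congr e).toEquiv

theorem aut_psl {L : Type u} [Group L] {n q p f : ℕ} (h : Real (.psl n q) L) (hp : p.Prime) (hf : 1 ≤ f)
    (hq : q = p ^ f) (hn : 2 ≤ n) (h2 : n = 2 → 4 ≤ q) :
    Nat.card (MulAut L) = (if n = 2 then 1 else 2) * f * (Nat.gcd n (q - 1) * Nat.card L) := by
  obtain ⟨F, _, _, hF, ⟨e⟩⟩ := h
  have := Fact.mk hp
  subst hq
  rw [aut_congr e, Cfsg.Agent.S0813.result p f hf hF n hn h2, Nat.card_congr e.toEquiv, Cfsg.Agent.S0265.result]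
  congr 1
  have h3 := Cfsg.Agent.S0242.result hF n (by omega)
  have h4 := Cfsg.Agent.S0243.result hF n hn
  have h5 : 0 < p ^ f - 1 := by
    have := Fintype.one_lt_card (α := F)
    omega
  have h6 : (p ^ f - 1) * Nat.card (Matrix.SpecialLinearGroup (Fin n) F) =
      (p ^ f - 1) * (Nat.gcd n (p ^ f - 1) * Nat.card (Matrix.ProjectiveSpecialLinearGroup (Fin n) F)) := by
    rw [h3, ← h4]; ring
  exact Nat.eq_of_mul_eq_mul_left h5 h6

theorem aut_psp {L : Type u} [Group L] {m q p f : ℕ} (h : Real (.psp m q) L) (hp : p.Prime) (hf : 1 ≤ f)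
    (hq : q = p ^ f) (hm : 2 ≤ m) (h2 : m = 2 → 3 ≤ q) :
    Nat.card (MulAut L) = (if m = 2 ∧ p = 2 then 2 else 1) * Nat.gcd 2 (q - 1) * f * Nat.card L := by
  obtain ⟨F, _, _, hF, ⟨e⟩⟩ := h
  have := Fact.mk hp
  subst hq
  rw [aut_congr e, Cfsg.Agent.S0814.result p f hf hF m hm h2, Nat.card_congr e.toEquiv]

theorem aut_psu {L : Type u} [Group L] {n q p f : ℕ} (h : Real (.psu n q) L) (hp : p.Prime) (hf : 1 ≤ f)
    (hq : q = p ^ f) (hn : 3 ≤ n) (h2 : ¬ (n = 3 ∧ q = 2)) :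
    Nat.card (MulAut L) = Nat.gcd n (q + 1) * (2 * f) * Nat.card L := by
  obtain ⟨F, _, _, hF, ⟨e⟩⟩ := h
  have := Fact.mk hp
  rw [aut_congr e, Cfsg.Agent.S0815.result p f hf hq hF n hn h2, Nat.card_congr e.toEquiv]

theorem aut_oplus {L : Type u} [Group L] {m q p f : ℕ} (h : Real (.oplus m q) L) (hp : p.Prime) (hf : 1 ≤ f)
    (hq : q = p ^ f) (hm : 4 ≤ m) :
    Nat.card (MulAut L) = (if m = 4 then 3 else 1) * (if p = 2 then 2 else (if Even (m * (q - 1) / 2) then 8 else 4)) *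
      f * Nat.card L := by
  obtain ⟨F, _, _, hF, ⟨e⟩⟩ := h
  have := Fact.mk hp
  subst hq
  rw [aut_congr e, Cfsg.Agent.S0817.result p f hf hF m hm, Nat.card_congr e.toEquiv]

theorem aut_ominus {L : Type u} [Group L] {m q p f : ℕ} (h : Real (.ominus m q) L) (hp : p.Prime) (hf : 1 ≤ f)
    (hq : q = p ^ f) (hm : 4 ≤ m) :
    Nat.card (MulAut L) = (if p = 2 then 2 else (if Even (m * (q - 1) / 2) then 4 else 8)) * f * Nat.card L := by
  obtain ⟨F, _, _, a, b, hF, hab, ⟨e⟩⟩ := h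
  have := Fact.mk hp
  subst hq
  rw [aut_congr e, Cfsg.Agent.S0818.result p f hf hF m hm a b hab, Nat.card_congr e.toEquiv]

end Cfsg.Agent.H332.EPO
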