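import Cfsg.Agent.H595.EPX.TD42

/-!
# The 2-parts of the centralizers of the elements of odd prime order of `³D₄(2)` (helper332)

The class list of helper347 is exact: `|C_A(x)| = bd` for the 21 representatives (`card_exact`).
* `cent_K` : `(Nat.card (C_K(y))).factorization 2 ≤ 3` for `y` of odd prime order;
* `nine_K` : an element of order 9.
-/

set_option autoImplicit false
set_option maxRecDepth 100000
set_option Elab.async false

namespace Cfsg.Agent.H332.EPO.D4

open Subgroup Cfsg.Agent.H347.HX Cfsg.Agent.H347.HX.D42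

/-- **Exactness of a complete class list.** -/
theorem exact_of_list {G : Type*} [Group G] [Finite G] {K : Subgroup G} (hK : K.Normal) (L : List (G × ℕ))
    (hm : ∀ p ∈ L, p.1 ∈ K) (hc : ∀ p ∈ L, Nat.card ↥(centralizer ({p.1} : Set G)) ≤ p.2)
    (hd : (L.map fun p => ConjClasses.mk p.1).Nodup) (hs : Nat.card K ≤ (L.map fun p => Nat.card G / p.2).sum)
    (hdv : ∀ p ∈ L, p.2 ∣ Nat.card G) : ∀ p ∈ L, Nat.card ↥(centralizer ({p.1} : Set G)) = p.2 := by
  classical
  have := Fintype.ofFinite G
  have key : ∀ L : List (G × ℕ), (L.map fun p => ConjClasses.mk p.1).Nodup →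
      (L.map fun p => Nat.card {y : G // IsConj p.1 y}).sum ≤
        (Finset.univ.filter fun y : G => ∃ p ∈ L, IsConj p.1 y).card := by
    intro L
    induction L with
    | nil => intro _; simp
    | cons q L ih =>
      intro hd
      rw [List.map_cons, List.nodup_cons] at hd
      have h1 := ih hd.2
      have hdis : Disjoint (Finset.univ.filter fun y : G => IsConj q.1 y)
          (Finset.univ.filter fun y : G => ∃ p ∈ L, IsConj p.1 y) := by
        rw [Finset.disjoint_left]
        intro y hy hy'
        rw [Finset.mem_filter] at hy hy'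
        obtain ⟨p, hp, hpy⟩ := hy'.2
        exact hd.1 (List.mem_map.2 ⟨p, hp, ConjClasses.mk_eq_mk_iff_isConj.2 (hpy.trans hy.2.symm)⟩)
      have hun : (Finset.univ.filter fun y : G => ∃ p ∈ q :: L, IsConj p.1 y) =
          (Finset.univ.filter fun y : G => IsConj q.1 y) ∪ (Finset.univ.filter fun y : G => ∃ p ∈ L, IsConj p.1 y) := by
        ext y
        simp only [Finset.mem_filter, Finset.mem_univ, true_and, Finset.mem_union, List.mem_cons, exists_eq_or_imp]
      have h3 : Nat.card {y : G // IsConj q.1 y} = (Finset.univ.filter fun y : G => IsConj q.1 y).card := by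
        rw [Nat.card_eq_fintype_card, Fintype.card_subtype]
      rw [List.map_cons, List.sum_cons, hun, Finset.card_union_of_disjoint hdis, h3]
      exact Nat.add_le_add_left h1 _
  have h2 : (Finset.univ.filter fun y : G => ∃ p ∈ L, IsConj p.1 y) ⊆ (Finset.univ.filter fun y : G => y ∈ K) := by
    intro y hy
    obtain ⟨p, hp, hpy⟩ := (Finset.mem_filter.1 hy).2
    obtain ⟨c, rfl⟩ := isConj_iff.1 hpy
    exact Finset.mem_filter.2 ⟨Finset.mem_univ _, hK.conj_mem _ (hm p hp) c⟩
  have h3 := Finset.card_le_card h2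
  have h4 : Nat.card K = (Finset.univ.filter fun y : G => y ∈ K).card := by
    rw [← SetLike.coe_sort_coe, Nat.card_coe_set_eq, ← Set.ncard_coe_finset]
    congr 1
    ext y
    simp
  rw [← h4] at h3
  have h5 := (key L hd).trans (h3.trans hs)
  have h6 : ∀ p ∈ L, Nat.card G / p.2 ≤ Nat.card {y : G // IsConj p.1 y} := by
    intro p hp
    have h7 := Cfsg.Agent.H235.Ore.ClassList.card_class p.1
    apply Nat.div_le_of_le_mul
    rw [← h7, mul_comm p.2]
    exact Nat.mul_le_mul_left _ (hc p hp)
  have h8 : ∀ M : List (G × ℕ), (∀ p ∈ M, Nat.card G / p.2 ≤ Nat.card {y : G // IsConj p.1 y}) →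
      (M.map fun p => Nat.card {y : G // IsConj p.1 y}).sum ≤ (M.map fun p => Nat.card G / p.2).sum →
      ∀ p ∈ M, Nat.card {y : G // IsConj p.1 y} = Nat.card G / p.2 := by
    intro M
    induction M with
    | nil => intro _ _ p hp; simp at hp
    | cons q M ih =>
      intro a1 a2 p hp
      rw [List.map_cons, List.sum_cons, List.map_cons, List.sum_cons] at a2
      have b1 := a1 q List.mem_cons_self
      have b2 : (M.map fun p => Nat.card G / p.2).sum ≤ (M.map fun p => Nat.card {y : G // IsConj p.1 y}).sum :=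
        List.sum_le_sum fun p hp => a1 p (List.mem_cons_of_mem _ hp)
      rcases List.mem_cons.1 hp with rfl | hp
      · omega
      · exact ih (fun p hp => a1 p (List.mem_cons_of_mem _ hp)) (by omega) p hp
  intro p hp
  have h9 := h8 L h6 h5 p hp
  have h10 := Cfsg.Agent.H235.Ore.ClassList.card_class p.1
  obtain ⟨k, hk⟩ := hdv p hp
  have hG : 0 < Nat.card G := Nat.card_pos
  have hp2 : 0 < p.2 := by
    rcases Nat.eq_zero_or_pos p.2 with h | h
    · rw [h, zero_mul] at hk
      omega
    · exact h
  have hk0 : 0 < k := by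
    rcases Nat.eq_zero_or_pos k with h | h
    · rw [h, mul_zero] at hk
      omega
    · exact h
  rw [h9, hk, Nat.mul_div_cancel_left _ hp2] at h10
  have h11 : k * Nat.card ↥(centralizer ({p.1} : Set G)) = k * p.2 := by rw [h10, mul_comm]
  exact Nat.eq_of_mul_eq_mul_left hk0 h11

theorem lst_nodup : (lst.map fun p => ConjClasses.mk p.1).Nodup := by
  have hd := lst_key
  have hk : ∀ p ∈ lst, ts.map (cnc 819 co p.2.X) = ts.map (fun t => cn t p.1) := by
    intro p hp
    apply List.map_congr_left
    intro t _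
    exact (cn_eq (lst_Rp p hp) t).symm
  rw [List.map_congr_left hk] at hd
  let φ : ConjClasses A → List ℕ := fun c =>
    Quotient.liftOn c (fun x => ts.map (fun t => cn t x)) fun a b hab => by
      apply List.map_congr_left
      intro t _
      exact cn_isConj t hab
  have hcomp : (lst.map fun p => ts.map (fun t => cn t p.1)) = (lst.map fun p => ConjClasses.mk p.1).map φ := by
    rw [List.map_map]
    rfl
  rw [hcomp] at hd
  exact List.Nodup.of_map _ hd

theorem lst_dvd : ∀ p ∈ lst, bd p.2.l ∣ Nat.card A := by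
  intro p hp
  rw [card_A]
  simp only [lst, List.mem_cons, List.not_mem_nil, or_false] at hp
  rcases hp with rfl | rfl | rfl | rfl | rfl | rfl | rfl | rfl | rfl | rfl | rfl | rfl | rfl | rfl | rfl | rfl | rfl | rfl | rfl | rfl | rfl
  all_goals exact Nat.dvd_of_mod_eq_zero (by decide +kernel)

/-- the centralizers in `³D₄(2):3` are known exactly -/
theorem card_exact : ∀ p ∈ lst, Nat.card (centralizer ({p.1} : Set A)) = bd p.2.l := by
  have hmap : (lst.map fun p => (p.1, bd p.2.l)).map (fun p => ConjClasses.mk p.1) = lst.map fun p => ConjClasses.mk p.1 := by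
    rw [List.map_map]; rfl
  have h := exact_of_list normal_K (lst.map fun p => (p.1, bd p.2.l))
    (fun p hp => by obtain ⟨q, hq, rfl⟩ := List.mem_map.1 hp; exact lst_mem q hq)
    (fun p hp => by obtain ⟨q, hq, rfl⟩ := List.mem_map.1 hp; exact card_le (lst_Rp q hq) hbase (lst_run q hq))
    (by rw [hmap]; exact lst_nodup)
    (by rw [List.map_map]; exact lst_sum)
    (fun p hp => by obtain ⟨q, hq, rfl⟩ := List.mem_map.1 hp; exact lst_dvd q hq)
  intro p hp
  exact h (p.1, bd p.2.l) (List.mem_map.2 ⟨p, hp, rfl⟩)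

theorem fac_le {n k : ℕ} (h0 : n ≠ 0) (h : ¬ 2 ^ (k + 1) ∣ n) : n.factorization 2 ≤ k := by
  by_contra hc
  push Not at hc
  exact h ((Nat.prime_two.pow_dvd_iff_le_factorization h0).2 hc)

/-- each representative is a 2-element or its centralizer has 2-part at most 8 -/
theorem lst_or : ∀ p ∈ lst, p.1 ^ 8 = 1 ∨ ¬ 2 ^ (3 + 1) ∣ bd p.2.l := by
  intro p hp
  have hb : ∀ {n : ℕ}, n % 2 ^ (3 + 1) ≠ 0 → ¬ 2 ^ (3 + 1) ∣ n := fun h hd => h (Nat.mod_eq_zero_of_dvd hd)
  simp only [lst, List.mem_cons, List.not_mem_nil, or_false] at hp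
  rcases hp with rfl | rfl | rfl | rfl | rfl | rfl | rfl | rfl | rfl | rfl | rfl | rfl | rfl | rfl | rfl | rfl | rfl | rfl | rfl | rfl | rfl
  · exact Or.inl (by rw [poww]; exact key1 (by decide +kernel))
  · exact Or.inl (by rw [poww]; exact key1 (by decide +kernel))
  · exact Or.inl (by rw [poww]; exact key1 (by decide +kernel))
  · exact Or.inr (hb (by decide +kernel))
  · exact Or.inr (hb (by decide +kernel))
  · exact Or.inl (by rw [poww]; exact key1 (by decide +kernel))
  · exact Or.inl (by rw [poww]; exact key1 (by decide +kernel))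
  · exact Or.inl (by rw [poww]; exact key1 (by decide +kernel))
  · exact Or.inr (hb (by decide +kernel))
  · exact Or.inr (hb (by decide +kernel))
  · exact Or.inr (hb (by decide +kernel))
  · exact Or.inr (hb (by decide +kernel))
  · exact Or.inl (by rw [poww]; exact key1 (by decide +kernel))
  · exact Or.inl (by rw [poww]; exact key1 (by decide +kernel))
  · exact Or.inr (hb (by decide +kernel))
  · exact Or.inr (hb (by decide +kernel))
  · exact Or.inr (hb (by decide +kernel))
  · exact Or.inr (hb (by decide +kernel))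
  · exact Or.inr (hb (by decide +kernel))
  · exact Or.inr (hb (by decide +kernel))
  · exact Or.inr (hb (by decide +kernel))

/-- **`|C(y)|_2 ≤ 2 ^ 3` for every `y` of odd prime order in `³D₄(2)`.** -/
theorem cent_K (y : K) (hy : (orderOf y).Prime) (h2 : orderOf y ≠ 2) :
    (Nat.card (centralizer ({y} : Set K))).factorization 2 ≤ 3 := by
  obtain ⟨p, hp, hc⟩ := classes y.2
  have ho : orderOf p.1 = orderOf y := by
    obtain ⟨c, hc⟩ := isConj_iff.1 hc
    have h1 : orderOf ((MulAut.conj c) p.1) = orderOf p.1 := (MulAut.conj c).orderOf_eq p.1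
    rw [← h1, MulAut.conj_apply, hc, Subgroup.orderOf_coe]
  have h0 : Nat.card (centralizer ({(y : A)} : Set A)) ≠ 0 := Nat.card_pos.ne'
  rcases lst_or p hp with h | h
  · exfalso
    have h3 := orderOf_dvd_of_pow_eq_one h
    rw [ho] at h3
    exact h2 ((Nat.prime_dvd_prime_iff_eq hy Nat.prime_two).1 (hy.dvd_of_dvd_pow (show orderOf y ∣ 2 ^ 3 from h3)))
  · have h4 : Nat.card (centralizer ({(y : A)} : Set A)) = bd p.2.l := by
      rw [← Cfsg.Agent.H595.EPX.TD42.card_cent_conj hc, card_exact p hp]
    rw [← h4] at h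
    rw [Cfsg.Agent.H595.EPX.TD42.card_cent_sub]
    refine le_trans ?_ (fac_le h0 h)
    refine (Nat.factorization_le_iff_dvd Nat.card_pos.ne' h0).2 (Subgroup.card_dvd_of_le inf_le_right) 2

/-- an element of order 9 -/
theorem nine_K : ∃ y : K, orderOf y = 9 := by
  have h1 : (ev s [2, 0, 1, 0]) ^ 3 ^ (1 + 1) = 1 := by
    rw [poww]; exact key1 (by decide +kernel)
  have h2 : ¬ (ev s [2, 0, 1, 0]) ^ 3 ^ 1 = 1 := by
    rw [poww]
    exact ne_of (v := []) 1 (by decide +kernel)
  have h3 : orderOf (ev s [2, 0, 1, 0]) = 9 := by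
    have := Fact.mk Nat.prime_three
    exact orderOf_eq_prime_pow h2 h1
  refine ⟨⟨_, ev_mem [2, 0, 1, 0]⟩, ?_⟩
  rw [← Subgroup.orderOf_coe]
  exact h3

end Cfsg.Agent.H332.EPO.D4
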