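import Cfsg.Agent.H332.EPO.AutNum
import Cfsg.Agent.H332.EPO.CentD4

/-!
# S5745 OWN q2, THEOREM D (D2): `³D₄(2)` (helper332)

`dtwo` : a proper subgroup `K` of `³D₄(2)` with `O_2(K) = 1` has index divisible by 8.
-/

set_option autoImplicit false

namespace Cfsg.Agent.H332.EPO

open Subgroup Cfsg Cfsg.Agent.OrdDiv

universe u

section

variable {T : Type u} [Group T] [Finite T]

/-- from the dichotomy in `K` to a bound for `|K|_2` -/
theorem fac_of_dich {c B : ℕ} {K : Subgroup T}
    (hC : ∀ y : T, (orderOf y).Prime → orderOf y ≠ 2 → (Nat.card (centralizer ({y} : Set T))).factorization 2 ≤ c)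
    (hO : ∀ E : Subgroup T, E ≤ K → (∀ g ∈ K, ∀ x ∈ E, g * x * g⁻¹ ∈ E) → IsPGroup 2 E → E = ⊥)
    (ha : ∀ (r m : ℕ) (M : Subgroup T), M ≤ K → r.Prime → r ≠ 2 → 0 < m → Nat.card M = r ^ m → (∀ x ∈ M, x ^ r = 1) →
      c + (Nat.card (MulAut M)).factorization 2 ≤ B)
    (hb : ∀ (L : Subgroup T) (m : ℕ), L ≤ K → IsSimpleGroup L → (∃ a b : L, a * b ≠ b * a) → 0 < m →
      Nat.card L ^ m ∣ Nat.card K → (m = 1 → (Nat.card (MulAut L)).factorization 2 ≤ B) ∧
        ((Nat.card L).factorization 2 ≤ c → m.factorization 2 + (Nat.card (MulAut L)).factorization 2 + c ≤ B)) :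
    (Nat.card K).factorization 2 ≤ B := by
  by_cases hK0 : K = ⊥
  · rw [hK0, Subgroup.card_bot, Nat.factorization_one]
    exact Nat.zero_le _
  have : Nontrivial K := (Subgroup.nontrivial_iff_ne_bot K).2 hK0
  have hC' : ∀ y : K, (orderOf y).Prime → orderOf y ≠ 2 →
      (Nat.card (centralizer ({y} : Set K))).factorization 2 ≤ c := by
    intro y h1 h2
    rw [← Subgroup.orderOf_coe] at h1 h2
    refine le_trans ?_ (hC y h1 h2)
    have h3 : (centralizer ({y} : Set K)).map K.subtype ≤ centralizer ({(y : T)} : Set T) := by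
      rintro _ ⟨z, hz, rfl⟩
      rw [mem_centralizer_singleton_iff]
      exact congrArg Subtype.val (mem_centralizer_singleton_iff.1 hz)
    have h4 := fac_mono (Subgroup.card_dvd_of_le h3) Nat.card_pos.ne'
    rwa [← Nat.card_congr ((centralizer ({y} : Set K)).equivMapOfInjective _ K.subtype_injective).toEquiv] at h4
  have hO' : ∀ E : Subgroup K, E.Normal → IsPGroup 2 E → E = ⊥ := by
    intro E hE h2
    have h1 := hO (E.map K.subtype) (Subgroup.map_subtype_le E) ?_ (h2.map _)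
    · exact (Subgroup.map_eq_bot_iff_of_injective _ K.subtype_injective).1 h1
    · rintro g hg _ ⟨x, hx, rfl⟩
      exact ⟨⟨g, hg⟩ * x * ⟨g, hg⟩⁻¹, hE.conj_mem x hx ⟨g, hg⟩, rfl⟩
  have eqv : ∀ M : Subgroup K, Nonempty (M ≃* (M.map K.subtype : Subgroup T)) := fun M =>
    ⟨M.equivMapOfInjective _ K.subtype_injective⟩
  rcases dich hC' hO' with ⟨r, m, M, hr, hr2, hm, hM, hex, hle⟩ | ⟨L, m, hs, hna, hm, hd, h⟩
  · obtain ⟨e⟩ := eqv M
    have h1 := ha r m (M.map K.subtype) (Subgroup.map_subtype_le M) hr hr2 hm (by rw [← Nat.card_congr e.toEquiv, hM])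
      (by rintro _ ⟨x, hx, rfl⟩; exact congrArg Subtype.val (hex x hx))
    rw [← aut_congr e] at h1
    omega
  · obtain ⟨e⟩ := eqv L
    have hs' : IsSimpleGroup (L.map K.subtype : Subgroup T) := by
      have := e.symm.toEquiv.nontrivial
      exact IsSimpleGroup.isSimpleGroup_of_surjective e.toMonoidHom e.surjective
    obtain ⟨a, b, hab⟩ := hna
    have h1 := hb (L.map K.subtype) m (Subgroup.map_subtype_le L) hs' ⟨e a, e b, fun h2 => hab (e.injective (by
      rw [map_mul, map_mul, h2]))⟩ hm (by rw [← Nat.card_congr e.toEquiv]; exact hd)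
    rw [← aut_congr e, ← Nat.card_congr e.toEquiv] at h1
    rcases h with ⟨h2, h3⟩ | ⟨h2, h3⟩
    · exact h3.trans (h1.1 h2)
    · exact h3.trans (h1.2 h2)

theorem index_of_fac {K : Subgroup T} {B d : ℕ} (h : (Nat.card K).factorization 2 ≤ B)
    (hT : 2 ^ (B + d) ∣ Nat.card T) : 2 ^ d ∣ K.index := by
  have h0 : Nat.card T ≠ 0 := Nat.card_pos.ne'
  have h1 := (Nat.prime_two.pow_dvd_iff_le_factorization h0).1 hT
  rw [← K.card_mul_index, fac_mul Nat.card_pos.ne' index_ne_zero_of_finite] at h1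
  exact (Nat.prime_two.pow_dvd_iff_le_factorization index_ne_zero_of_finite).2 (by omega)

/-- numeric: a power of an odd prime dividing `|³D₄(2)|` -/
theorem prime_cases {r m : ℕ} (hr : r.Prime) (h2 : r ≠ 2) (hm : 0 < m) (h : r ^ m ∣ 211341312) :
    (r = 3 ∧ m ≤ 4) ∨ (r = 7 ∧ m ≤ 2) ∨ (r = 13 ∧ m ≤ 1) := by
  have h1 : r ∣ 2 ^ 12 * 3 ^ 4 * 7 ^ 2 * 13 := (dvd_pow_self r hm.ne').trans (h.trans (by norm_num))
  have hle : ∀ {k : ℕ}, ¬ r ^ (k + 1) ∣ 211341312 → m ≤ k := by
    intro k hk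
    by_contra hc
    push Not at hc
    exact hk ((pow_dvd_pow r hc).trans h)
  rcases hr.dvd_mul.1 h1 with h1 | h1
  · rcases hr.dvd_mul.1 h1 with h1 | h1
    · rcases hr.dvd_mul.1 h1 with h1 | h1
      · exact absurd ((Nat.prime_dvd_prime_iff_eq hr Nat.prime_two).1 (hr.dvd_of_dvd_pow h1)) h2
      · have h3 := (Nat.prime_dvd_prime_iff_eq hr Nat.prime_three).1 (hr.dvd_of_dvd_pow h1)
        subst h3
        exact Or.inl ⟨rfl, hle (by norm_num)⟩
    · have h3 := (Nat.prime_dvd_prime_iff_eq hr (by norm_num)).1 (hr.dvd_of_dvd_pow h1)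
      subst h3
      exact Or.inr (Or.inl ⟨rfl, hle (by norm_num)⟩)
  · have h3 := (Nat.prime_dvd_prime_iff_eq hr (by norm_num)).1 h1
    subst h3
    exact Or.inr (Or.inr ⟨rfl, hle (by norm_num)⟩)

/-- the numbers of a simple factor -/
theorem row_num {N c B A n m : ℕ} (b : ℕ) (hA : A.factorization 2 ≤ b) (hm : 0 < m) (hd : n ^ m ∣ N)
    (h : (b + c ≤ B ∧ ¬ n ^ 2 ∣ N) ∨ (b + c + 1 ≤ B ∧ ¬ n ^ 3 ∣ N)) :
    (m = 1 → A.factorization 2 ≤ B) ∧ m.factorization 2 + A.factorization 2 + c ≤ B := by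
  have hle : ∀ {k : ℕ}, ¬ n ^ (k + 1) ∣ N → m ≤ k := by
    intro k hk
    by_contra hc
    push Not at hc
    exact hk ((pow_dvd_pow n hc).trans hd)
  have h1 : (1 : ℕ).factorization 2 = 0 := by rw [Nat.factorization_one, Finsupp.zero_apply]
  have h2 : (2 : ℕ).factorization 2 = 1 := Nat.prime_two.factorization_self
  rcases h with ⟨h3, h4⟩ | ⟨h3, h4⟩
  · obtain rfl : m = 1 := by have := hle h4; omega
    rw [h1]
    omega
  · have h5 := hle h4
    rcases (show m = 1 ∨ m = 2 by omega) with rfl | rfl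
    · rw [h1]
      omega
    · rw [h2]
      omega

theorem cands_td4 : cands [(2, 12), (3, 4), (7, 2), (13, 1)] 211341312 =
    [.psl 3 2, .psl 2 8, .psl 3 3, .psl 2 27, .psl 2 7, .psl 2 13, .psu 3 3, .td4 2] := by decide +kernel

/-- **(D2), abstract form** -/
theorem dtwo_of (tb : OrderTable.{u}) (hKS : ∀ (S : Type u) [Group S] [Finite S], IsSimpleGroup S → IsKnownSimple' S)
    (hT : Nat.card T = 211341312)
    (hC : ∀ y : T, (orderOf y).Prime → orderOf y ≠ 2 → (Nat.card (centralizer ({y} : Set T))).factorization 2 ≤ 3)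
    (h9 : ∃ y : T, orderOf y = 9) {K : Subgroup T} (hK : K ≠ ⊤)
    (hO : ∀ E : Subgroup T, E ≤ K → (∀ g ∈ K, ∀ x ∈ E, g * x * g⁻¹ ∈ E) → IsPGroup 2 E → E = ⊥) :
    2 ^ 3 ∣ K.index := by
  refine index_of_fac (B := 9) (fac_of_dich hC hO ?_ ?_) (by rw [hT]; norm_num)
  · intro r m M hMK hr hr2 hm hM hex
    have hd : r ^ m ∣ 211341312 := by rw [← hT, ← hM]; exact Subgroup.card_subgroup_dvd_card M
    rcases prime_cases hr hr2 hm hd with ⟨rfl, hm4⟩ | ⟨rfl, hm2⟩ | ⟨rfl, hm1⟩
    · have hm3 : m ≤ 3 := by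
        by_contra hc
        obtain rfl : m = 4 := by omega
        obtain ⟨y, hy⟩ := h9
        exact no_elem Nat.prime_three (by rw [hT]; norm_num) (by rw [hT]; norm_num) hM hex (y := y) (by rw [hy]; norm_num)
      have h1 := mulAut_fac (B := 5) Nat.prime_three (by norm_num) hM (by
        intro k hk
        have hk3 : k ≤ 3 := hk.trans hm3
        interval_cases k <;> decide +kernel)
      omega
    · have h1 := mulAut_fac (B := 5) (by norm_num : Nat.Prime 7) (by norm_num) hM (by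
        intro k hk
        have hk3 : k ≤ 2 := hk.trans hm2
        interval_cases k <;> decide +kernel)
      omega
    · have h1 := mulAut_fac (B := 5) (by norm_num : Nat.Prime 13) (by norm_num) hM (by
        intro k hk
        have hk3 : k ≤ 1 := hk.trans hm1
        interval_cases k <;> decide +kernel)
      omega
  · intro L m hLK hs hna hm hd
    have hd' : Nat.card L ^ m ∣ 211341312 := by rw [← hT]; exact hd.trans (Subgroup.card_subgroup_dvd_card K)
    have hL : Nat.card L ∣ 211341312 := (dvd_pow_self _ hm.ne').trans hd'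
    obtain ⟨g, hg, hr, hc⟩ := exists_good tb (hKS L hs) (by push Not; exact hna)
      (l := [(2, 12), (3, 4), (7, 2), (13, 1)]) (N := 211341312) (by decide +kernel) hL
    rw [cands_td4] at hg
    have h0 : Nat.card (MulAut L) ≠ 0 := Nat.card_pos.ne'
    have key : ∀ b, (Nat.card (MulAut L)).factorization 2 ≤ b →
        ((b + 3 ≤ 9 ∧ ¬ Nat.card L ^ 2 ∣ 211341312) ∨ (b + 3 + 1 ≤ 9 ∧ ¬ Nat.card L ^ 3 ∣ 211341312)) →
        (m = 1 → (Nat.card (MulAut L)).factorization 2 ≤ 9) ∧
        ((Nat.card L).factorization 2 ≤ 3 → m.factorization 2 + (Nat.card (MulAut L)).factorization 2 + 3 ≤ 9) := by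
      intro b h1 h2
      have h3 := row_num b h1 hm hd' h2
      exact ⟨h3.1, fun _ => h3.2⟩
    simp only [List.mem_cons, List.not_mem_nil, or_false] at hg
    rcases hg with rfl | rfl | rfl | rfl | rfl | rfl | rfl | rfl
    · have hc' : Nat.card L = 168 := hc.trans (by decide +kernel)
      have ha := aut_psl hr Nat.prime_two (f := 1) le_rfl (by norm_num) (by norm_num) (by norm_num)
      rw [hc'] at ha
      exact key 4 (fac_le h0 (by rw [ha]; decide +kernel)) (Or.inr ⟨by norm_num, by rw [hc']; norm_num⟩)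
    · have hc' : Nat.card L = 504 := hc.trans (by decide +kernel)
      have ha := aut_psl hr Nat.prime_two (f := 3) (by norm_num) (by norm_num) (by norm_num) (by norm_num)
      rw [hc'] at ha
      exact key 4 (fac_le h0 (by rw [ha]; decide +kernel)) (Or.inr ⟨by norm_num, by rw [hc']; norm_num⟩)
    · have hc' : Nat.card L = 5616 := hc.trans (by decide +kernel)
      have ha := aut_psl hr Nat.prime_three (f := 1) le_rfl (by norm_num) (by norm_num) (by norm_num)
      rw [hc'] at ha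
      exact key 5 (fac_le h0 (by rw [ha]; decide +kernel)) (Or.inl ⟨by norm_num, by rw [hc']; norm_num⟩)
    · have hc' : Nat.card L = 9828 := hc.trans (by decide +kernel)
      have ha := aut_psl hr Nat.prime_three (f := 3) (by norm_num) (by norm_num) (by norm_num) (by norm_num)
      rw [hc'] at ha
      exact key 4 (fac_le h0 (by rw [ha]; decide +kernel)) (Or.inl ⟨by norm_num, by rw [hc']; norm_num⟩)
    · have hc' : Nat.card L = 168 := hc.trans (by decide +kernel)
      have ha := aut_psl hr (p := 7) (by norm_num) (f := 1) le_rfl (by norm_num) (by norm_num) (by norm_num)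
      rw [hc'] at ha
      exact key 4 (fac_le h0 (by rw [ha]; decide +kernel)) (Or.inr ⟨by norm_num, by rw [hc']; norm_num⟩)
    · have hc' : Nat.card L = 1092 := hc.trans (by decide +kernel)
      have ha := aut_psl hr (p := 13) (by norm_num) (f := 1) le_rfl (by norm_num) (by norm_num) (by norm_num)
      rw [hc'] at ha
      exact key 4 (fac_le h0 (by rw [ha]; decide +kernel)) (Or.inl ⟨by norm_num, by rw [hc']; norm_num⟩)
    · have hc' : Nat.card L = 6048 := hc.trans (by decide +kernel)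
      have ha := aut_psu hr Nat.prime_three (f := 1) le_rfl (by norm_num) (by norm_num) (by norm_num)
      rw [hc'] at ha
      exact key 6 (fac_le h0 (by rw [ha]; decide +kernel)) (Or.inl ⟨by norm_num, by rw [hc']; norm_num⟩)
    · exfalso
      have hc' : Nat.card L = 211341312 := hc.trans (by decide +kernel)
      have h1 : L = ⊤ := Subgroup.eq_top_of_card_eq L (hc'.trans hT.symm)
      rw [h1] at hLK
      exact hK (top_le_iff.1 hLK)

end

/-- **(D2)** : `T ≅ ³D₄(2)` -/
theorem dtwo (tb : OrderTable.{u}) (hKS : ∀ (S : Type u) [Group S] [Finite S], IsSimpleGroup S → IsKnownSimple' S)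
    {T : Type u} [Group T] [Finite T] {F : Type*} [Field F] [Fintype F] (hF : Fintype.card F = 8)
    (e : T ≃* ↥(Lie.twistedD4 F 2)) {K : Subgroup T} (hK : K ≠ ⊤)
    (hO : ∀ E : Subgroup T, E ≤ K → (∀ g ∈ K, ∀ x ∈ E, g * x * g⁻¹ ∈ E) → IsPGroup 2 E → E = ⊥) :
    2 ^ 3 ∣ K.index := by
  obtain ⟨φ⟩ := Cfsg.Agent.H347.HX.D42.iso F hF
  have ψ : T ≃* ↥Cfsg.Agent.H347.HX.D42.K := e.trans φ.symm
  refine dtwo_of tb hKS ?_ ?_ ?_ hK hO
  · rw [Nat.card_congr ψ.toEquiv, Cfsg.Agent.H347.HX.D42.card_K]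
  · intro y h1 h2
    have h3 := D4.cent_K (ψ y) (by rw [ψ.orderOf_eq]; exact h1) (by rw [ψ.orderOf_eq]; exact h2)
    have h4 : (centralizer ({y} : Set T)).map ψ.toMonoidHom = centralizer ({ψ y} : Set _) := by
      ext z
      rw [mem_centralizer_singleton_iff]
      constructor
      · rintro ⟨w, hw, rfl⟩
        have := congrArg ψ (mem_centralizer_singleton_iff.1 hw)
        rwa [map_mul, map_mul] at this
      · intro hz
        refine ⟨ψ.symm z, mem_centralizer_singleton_iff.2 (ψ.injective ?_), ψ.apply_symm_apply z⟩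
        rw [map_mul, map_mul, ψ.apply_symm_apply]
        exact hz
    rw [← h4, ← Nat.card_congr ((centralizer ({y} : Set T)).equivMapOfInjective _ ψ.injective).toEquiv] at h3
    exact h3
  · obtain ⟨y, hy⟩ := D4.nine_K
    exact ⟨ψ.symm y, by rw [ψ.symm.orderOf_eq]; exact hy⟩

/-- **(D2)** in the form of helper737's `Q2.dvd'` (as `H742.DThree.D3`) -/
theorem D2 {T : Type u} [Group T] [Finite T] {F : Type} [Field F] [Fintype F] (hF : Fintype.card F = 8)
    (E : T ≃* ↥(Lie.twistedD4 F 2)) (tab : OrderTable.{u})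
    (known : ∀ (S : Type u) [Group S] [Finite S] [IsSimpleGroup S], IsKnownSimple' S) {K : Subgroup T} (hK : K ≠ ⊤)
    (hO : ∀ D ≤ K, IsPGroup 2 D → (∀ g ∈ K, ∀ d ∈ D, g * d * g⁻¹ ∈ D) → D = ⊥) : 2 ^ 3 ∣ K.index :=
  dtwo tab (fun S _ _ _ => known S) hF E hK fun D h1 h2 h3 => hO D h1 h3 h2

end Cfsg.Agent.H332.EPO
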