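import Cfsg.Agent.PermutationGroups.OnanScott

/-!
# S5745 OWN q2, THEOREM D, abstract part (helper332)

`dich` : a finite group `X ≠ 1` with `O_2(X) = 1` and `|C_X(y)|_2 ≤ 2 ^ c` for all `y` of odd prime order: either there is
an elementary abelian `r`-subgroup `M`, `r` odd, with `|X|_2 ≤ 2 ^ c |Aut M|_2`, or a simple nonabelian `L ≤ X` and `m > 0`
with `|L| ^ m ∣ |X|` and `|X|_2 ≤ |Aut L|_2` (`m = 1`) or `|L|_2 ≤ 2 ^ c` and `|X|_2 ≤ m_2 |Aut L|_2 2 ^ c`.
-/

set_option autoImplicit false

namespace Cfsg.Agent.H332.EPO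

open Subgroup

theorem fac_mono {a b : ℕ} (h : a ∣ b) (hb : b ≠ 0) : a.factorization 2 ≤ b.factorization 2 :=
  (Nat.factorization_le_iff_dvd (ne_zero_of_dvd_ne_zero hb h) hb).2 h 2

theorem fac_mul {a b : ℕ} (ha : a ≠ 0) (hb : b ≠ 0) :
    (a * b).factorization 2 = a.factorization 2 + b.factorization 2 := by
  rw [Nat.factorization_mul ha hb, Finsupp.add_apply]

section

variable {X : Type*} [Group X]

/-- `|N(L)|` divides `|C(L)| |Aut L|` -/
theorem card_normalizer_dvd [Finite X] (L : Subgroup X) :
    Nat.card (normalizer (L : Set X)) ∣ Nat.card (centralizer (L : Set X)) * Nat.card (MulAut L) := by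
  have h1 := (normalizerMonoidHom L).ker.card_mul_index
  rw [index_ker] at h1
  have h2 : Nat.card (normalizerMonoidHom L).ker = Nat.card (centralizer (L : Set X)) := by
    rw [normalizerMonoidHom_ker]
    exact Nat.card_congr (subgroupOfEquivOfLe (centralizer_le_normalizer (L : Set X))).toEquiv
  rw [← h1, h2]
  exact Nat.mul_dvd_mul_left _ (Subgroup.card_subgroup_dvd_card _)

theorem exists_odd [Finite X] {H : Subgroup X} (h : ¬ IsPGroup 2 H) : ∃ y ∈ H, (orderOf y).Prime ∧ orderOf y ≠ 2 := by
  by_contra hcon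
  push Not at hcon
  apply h
  have h0 : Nat.card H ≠ 0 := Nat.card_pos.ne'
  refine IsPGroup.of_card (n := (Nat.card H).primeFactorsList.length) ?_
  refine Nat.eq_prime_pow_of_unique_prime_dvd h0 ?_
  intro p hp hd
  have := Fact.mk hp
  obtain ⟨y, hy⟩ := exists_prime_orderOf_dvd_card' p hd
  have h1 : orderOf (y : X) = p := by rw [Subgroup.orderOf_coe, hy]
  have h2 := hcon y y.2 (by rw [h1]; exact hp)
  rw [h1] at h2
  exact h2

/-- a nonabelian simple group is not a 2-group -/
theorem not_two [Finite X] {L : Subgroup X} (hL : IsSimpleGroup L) (hna : ∃ a b : L, a * b ≠ b * a) :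
    ¬ IsPGroup 2 L := by
  intro h
  have h1 := h.center_nontrivial
  rcases hL.eq_bot_or_eq_top_of_normal (center L) inferInstance with h2 | h2
  · rw [h2] at h1
    exact (Subgroup.nontrivial_iff_ne_bot _).1 h1 rfl
  · obtain ⟨a, b, hab⟩ := hna
    apply hab
    have h3 : a ∈ center L := by rw [h2]; trivial
    exact ((Subgroup.mem_center_iff.1 h3) b).symm

theorem cent_le {L : Subgroup X} {y : X} (hy : y ∈ L) : centralizer (L : Set X) ≤ centralizer ({y} : Set X) :=
  centralizer_le (Set.singleton_subset_iff.2 hy)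

theorem map_conj_map_conj (g h : X) (S : Subgroup X) :
    (S.map (MulAut.conj h).toMonoidHom).map (MulAut.conj g).toMonoidHom = S.map (MulAut.conj (g * h)).toMonoidHom := by
  rw [Subgroup.map_map]
  congr 1
  ext x
  simp [mul_assoc]

/-- The normalizer of a factor has index `m` (as in `H504.AN.index_normalizer`). -/
theorem index_nz {m : ℕ} {S : Fin m → Subgroup X} (hinj : Function.Injective S)
    (hconj : ∀ (g : X) i, ∃ j, S j = (S i).map (MulAut.conj g).toMonoidHom)
    (htrans : ∀ i j, ∃ g : X, S j = (S i).map (MulAut.conj g).toMonoidHom) (o : Fin m) :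
    (normalizer (S o : Set X) : Subgroup X).index = m := by
  classical
  choose f hf using hconj
  have hf1 : ∀ i, f 1 i = i := by
    intro i
    apply hinj
    rw [hf]
    ext x
    simp
  have hf2 : ∀ x y i, f (x * y) i = f x (f y i) := by
    intro x y i
    apply hinj
    rw [hf, hf x, hf y, map_conj_map_conj]
  let act : MulAction X (Fin m) :=
    { smul := f
      one_smul := hf1
      mul_smul := hf2 }
  have hsm : ∀ (x : X) i, x • i = f x i := fun _ _ => rfl
  have htr : MulAction.IsPretransitive X (Fin m) := by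
    constructor
    intro i j
    obtain ⟨g, hg⟩ := htrans i j
    refine ⟨g, ?_⟩
    apply hinj
    rw [hsm, hf, hg]
  have hst : MulAction.stabilizer X o = (normalizer (S o : Set X) : Subgroup X) := by
    ext x
    rw [MulAction.mem_stabilizer_iff, Subgroup.mem_normalizer_iff_map_conj_eq, hsm]
    constructor
    · intro h
      exact (hf x o).symm.trans (congrArg S h)
    · intro h
      exact hinj ((hf x o).trans h)
  rw [← hst, MulAction.index_stabilizer_of_transitive, Nat.card_fin]

variable [Finite X]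

theorem exists_minNormal [Nontrivial X] : ∃ M : Subgroup X, M.Normal ∧ M ≠ ⊥ ∧
    ∀ K : Subgroup X, K.Normal → K ≤ M → K = ⊥ ∨ K = M := by
  have hfin : {T : Subgroup X | T.Normal ∧ T ≠ ⊥}.Finite := Set.toFinite _
  have hne : {T : Subgroup X | T.Normal ∧ T ≠ ⊥}.Nonempty := ⟨⊤, inferInstance, top_ne_bot⟩
  obtain ⟨M, ⟨hn, h0⟩, hm⟩ := hfin.exists_minimal hne
  refine ⟨M, hn, h0, fun K hK hle => ?_⟩
  by_cases hK0 : K = ⊥
  · exact Or.inl hK0
  · exact Or.inr (le_antisymm hle (hm ⟨hK, hK0⟩ hle))

/-- the centraliser of `L` has a 2-part bounded by `c`, if `L` has an element of odd prime order -/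
theorem cent_fac {c : ℕ}
    (hC : ∀ y : X, (orderOf y).Prime → orderOf y ≠ 2 → (Nat.card (centralizer ({y} : Set X))).factorization 2 ≤ c)
    {L : Subgroup X} (hL : ¬ IsPGroup 2 L) : (Nat.card (centralizer (L : Set X))).factorization 2 ≤ c := by
  obtain ⟨y, hy, h1, h2⟩ := exists_odd hL
  exact (fac_mono (Subgroup.card_dvd_of_le (cent_le hy)) Nat.card_pos.ne').trans (hC y h1 h2)

/-- a subgroup commuting with a subgroup which is not a 2-group -/
theorem fac_of_comm {c : ℕ}
    (hC : ∀ y : X, (orderOf y).Prime → orderOf y ≠ 2 → (Nat.card (centralizer ({y} : Set X))).factorization 2 ≤ c)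
    {L R : Subgroup X} (hR : ¬ IsPGroup 2 R) (h : L ≤ centralizer (R : Set X)) : (Nat.card L).factorization 2 ≤ c :=
  (fac_mono (Subgroup.card_dvd_of_le h) Nat.card_pos.ne').trans (cent_fac hC hR)

theorem card_fac (L : Subgroup X) : (Nat.card X).factorization 2 ≤
    (normalizer (L : Set X)).index.factorization 2 + (Nat.card (MulAut L)).factorization 2 +
      (Nat.card (centralizer (L : Set X))).factorization 2 := by
  have h1 := (normalizer (L : Set X)).card_mul_index
  rw [← h1, fac_mul Nat.card_pos.ne' index_ne_zero_of_finite]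
  have h2 := fac_mono (card_normalizer_dvd L) (Nat.mul_ne_zero Nat.card_pos.ne' Nat.card_pos.ne')
  rw [fac_mul Nat.card_pos.ne' Nat.card_pos.ne'] at h2
  omega

/-- **The dichotomy.** -/
theorem dich [Nontrivial X] {c : ℕ}
    (hC : ∀ y : X, (orderOf y).Prime → orderOf y ≠ 2 → (Nat.card (centralizer ({y} : Set X))).factorization 2 ≤ c)
    (hO : ∀ E : Subgroup X, E.Normal → IsPGroup 2 E → E = ⊥) :
    (∃ (r m : ℕ) (M : Subgroup X), r.Prime ∧ r ≠ 2 ∧ 0 < m ∧ Nat.card M = r ^ m ∧ (∀ x ∈ M, x ^ r = 1) ∧
      (Nat.card X).factorization 2 ≤ c + (Nat.card (MulAut M)).factorization 2) ∨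
    (∃ (L : Subgroup X) (m : ℕ), IsSimpleGroup L ∧ (∃ a b : L, a * b ≠ b * a) ∧ 0 < m ∧ Nat.card L ^ m ∣ Nat.card X ∧
      ((m = 1 ∧ (Nat.card X).factorization 2 ≤ (Nat.card (MulAut L)).factorization 2) ∨
        ((Nat.card L).factorization 2 ≤ c ∧ (Nat.card X).factorization 2 ≤
          m.factorization 2 + (Nat.card (MulAut L)).factorization 2 + c))) := by
  classical
  obtain ⟨M, hMn, hM0, hMm⟩ := exists_minNormal (X := X)
  by_cases hab : ∀ x ∈ M, ∀ y ∈ M, Commute x y
  · left
    obtain ⟨S, m, hSM, hS, hm, ⟨e⟩⟩ := Cfsg.Agent.Lib.MinNormal.exists_mulEquiv_pi M hM0 hMm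
    have hcS : ∀ a b : S, a * b = b * a := fun a b => Subtype.ext (hab a (hSM a.2) b (hSM b.2))
    let _ : CommGroup S := { (inferInstance : Group S) with mul_comm := hcS }
    have hpr : (Nat.card S).Prime := IsSimpleGroup.prime_card
    have hcM : Nat.card M = Nat.card S ^ m := by
      rw [Nat.card_congr e.toEquiv, Nat.card_pi, Finset.prod_const, Finset.card_univ, Fintype.card_fin]
    have hex : ∀ x ∈ M, x ^ Nat.card S = 1 := by
      intro x hx
      have h1 : (⟨x, hx⟩ : M) ^ Nat.card S = 1 := by
        apply e.injective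
        rw [map_pow, map_one]
        funext i
        exact pow_card_eq_one'
      exact congrArg Subtype.val h1
    have hr2 : Nat.card S ≠ 2 := by
      intro h
      apply hM0
      refine hO M hMn (IsPGroup.of_card (n := m) ?_)
      rw [hcM, h]
    refine ⟨Nat.card S, m, M, hpr, hr2, hm, hcM, hex, ?_⟩
    have h1 := card_fac M
    have h2 : (normalizer (M : Set X)).index = 1 := by
      rw [index_eq_one, normalizer_eq_top_iff]
      exact hMn
    rw [h2, Nat.factorization_one, Finsupp.zero_apply, zero_add] at h1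
    have h3 : ¬ IsPGroup 2 M := by
      intro h
      exact hM0 (hO M hMn h)
    have h4 := cent_fac hC h3
    omega
  · right
    obtain ⟨m, S, e, hm, hS, hna, hinj, hSM, -, hconj, htrans, he, hcoord⟩ :=
      Cfsg.Agent.PermutationGroups.OnanScott.exists_coordinates M hMm hab
    obtain ⟨o, -⟩ : ∃ o : Fin m, True := ⟨⟨0, hm⟩, trivial⟩
    have hcard : ∀ i, Nat.card (S i) = Nat.card (S o) := by
      intro i
      obtain ⟨g, hg⟩ := htrans o i
      rw [hg]
      exact Nat.card_congr ((S o).equivMapOfInjective _ (MulAut.conj g).injective).toEquiv.symm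
    have hcM : Nat.card M = Nat.card (S o) ^ m := by
      rw [Nat.card_congr e.toEquiv, Nat.card_pi, Finset.prod_congr rfl (fun i _ => hcard i), Finset.prod_const,
        Finset.card_univ, Fintype.card_fin]
    have hn2 : ¬ IsPGroup 2 (S o) := not_two (hS _) (hna _)
    have hidx := index_nz hinj hconj htrans o
    have hfac := card_fac (S o)
    rw [hidx] at hfac
    refine ⟨S o, m, hS _, hna _, hm, hcM ▸ Subgroup.card_subgroup_dvd_card M, ?_⟩
    by_cases hm1 : m = 1
    · -- `M` is simple
      have hML : M = S o := by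
        symm
        apply Subgroup.eq_of_le_of_card_ge (hSM _)
        rw [hcM, hm1, pow_one]
      have hm2 : m.factorization 2 = 0 := by rw [hm1, Nat.factorization_one, Finsupp.zero_apply]
      by_cases hc0 : centralizer ((S o : Subgroup X) : Set X) = ⊥
      · left
        refine ⟨hm1, ?_⟩
        rw [hc0, Subgroup.card_bot, hm2, Nat.factorization_one, Finsupp.zero_apply] at hfac
        omega
      · right
        have hnc : (centralizer ((S o : Subgroup X) : Set X)).Normal := by
          rw [← hML]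
          infer_instance
        have h1 : ¬ IsPGroup 2 (centralizer ((S o : Subgroup X) : Set X)) := fun h => hc0 (hO _ hnc h)
        refine ⟨fac_of_comm hC h1 ?_, ?_⟩
        · intro x hx y hy
          exact ((mem_centralizer_iff.1 hy) x hx).symm
        · have h2 := cent_fac hC hn2
          omega
    · right
      obtain ⟨o', ho'⟩ : ∃ o' : Fin m, o' ≠ o := by
        have : Nontrivial (Fin m) := Fin.nontrivial_iff_two_le.2 (by omega)
        exact exists_ne o
      have h1 : S o ≤ centralizer ((S o' : Subgroup X) : Set X) := by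
        intro x hx y hy
        have h2 : e (⟨x, hSM _ hx⟩ : M) o' = 1 := by
          have h3 := he o ⟨x, hx⟩
          have h4 : (⟨x, hSM _ hx⟩ : M) = e.symm (Pi.mulSingle o ⟨x, hx⟩) := Subtype.ext h3.symm
          rw [h4, MulEquiv.apply_symm_apply, Pi.mulSingle_eq_of_ne ho']
        have h3 := (hcoord (⟨x, hSM _ hx⟩ : M) o').1 h2 y hy
        exact h3.eq.symm
      refine ⟨fac_of_comm hC (not_two (hS _) (hna _)) h1, ?_⟩
      have h2 := cent_fac hC hn2
      omega

end

end Cfsg.Agent.H332.EPO
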